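import Groth.Prelude.Def_FSch3

/-!
# Levelwise cartesian squares of systems are cartesian

`isPullback_of_levelwise`: a square in the category `FSch.Sys` whose levels are all cartesian squares of
schemes is cartesian.
-/

set_option autoImplicit false
universe u

open CategoryTheory CategoryTheory.Limits AlgebraicGeometry

namespace Groth.Agent.Fcompl.H561.SysPullback

/-- A square of systems which is cartesian at every level is cartesian in the category of systems. -/
theorem isPullback_of_levelwise {𝔓 𝔛 𝔜 𝔖 : FSch.Sys.{u}} (p : 𝔓 ⟶ 𝔛) (q : 𝔓 ⟶ 𝔜) (f : 𝔛 ⟶ 𝔖)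
    (g : 𝔜 ⟶ 𝔖)
    (h : ∀ n, IsPullback ((p : FSch.Hom 𝔓 𝔛).app n) ((q : FSch.Hom 𝔓 𝔜).app n)
      ((f : FSch.Hom 𝔛 𝔖).app n) ((g : FSch.Hom 𝔜 𝔖).app n)) : IsPullback p q f g := by
  have w : p ≫ f = q ≫ g := FSch.Hom.ext (funext fun n => (h n).w)
  refine ⟨⟨w⟩, ⟨Limits.PullbackCone.IsLimit.mk w
    (fun s => ⟨fun n => (h n).lift ((s.fst : FSch.Hom _ _).app n)
      ((s.snd : FSch.Hom _ _).app n) (congrArg (fun h : FSch.Hom _ _ => h.app n) s.condition), fun n => ?_⟩)
    (fun s => ?_) (fun s => ?_) (fun s m h1 h2 => ?_)⟩⟩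
  · have e1 := (s.fst : FSch.Hom _ _).comm n
    have e2 := (s.snd : FSch.Hom _ _).comm n
    have c1 := (p : FSch.Hom _ _).comm n
    have c2 := (q : FSch.Hom _ _).comm n
    apply (h (n + 1)).hom_ext
    · rw [Category.assoc, Category.assoc, IsPullback.lift_fst, ← c1, IsPullback.lift_fst_assoc, e1]
    · rw [Category.assoc, Category.assoc, IsPullback.lift_snd, ← c2, IsPullback.lift_snd_assoc, e2]
  · exact FSch.Hom.ext (funext fun n => (h n).lift_fst _ _ _)
  · exact FSch.Hom.ext (funext fun n => (h n).lift_snd _ _ _)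
  · refine FSch.Hom.ext (funext fun n => ?_)
    apply (h n).hom_ext
    · refine Eq.trans ?_ ((h n).lift_fst _ _ _).symm
      exact congrArg (fun h : FSch.Hom _ _ => h.app n) h1
    · refine Eq.trans ?_ ((h n).lift_snd _ _ _).symm
      exact congrArg (fun h : FSch.Hom _ _ => h.app n) h2

end Groth.Agent.Fcompl.H561.SysPullback
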